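import Cfsg.Agent.H563.TW.Num7
import Cfsg.Agent.H122.SX.E127

/-!
# No fixed points of `(X₇, 1)` on the unipotent radicals of the parabolic `A₆ A₁` of `E₈(q)` (helper563, S2452)

* `out7` : the weights of the roots outside the Levi subgroup (all nodes but `3`) on the block of type `A₆`: two values
  `m`, `m + 1`;
* `nf7` : `A ∈ SL₇(q)` with irreducible characteristic polynomial and `A ^ r = 1`, `r ≠ 7` prime, `r ∣ 1 + q + … + q⁶`:
  `p7 K A` has no fixed points on `V_J`, `V_J⁻`, `J = J6`.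
-/

set_option autoImplicit false
set_option linter.unusedSectionVars false

namespace Cfsg.Agent.H563.TW

open CoxeterSystem Cfsg.Agent.ChevalleyStructure.CoxeterGeom Cfsg.Agent.Tits.Roots Cfsg.Agent.Tits.Core
  Cfsg.Agent.Nodes.Reps Cfsg.Agent.Nodes.BNOf Cfsg.Agent.Nodes.RGDLib Cfsg.Agent.Nodes.Bruhat
  Cfsg.Agent.Nodes.OppDec Cfsg.Agent.Nodes.LeviDec Cfsg.Agent.Nodes.KindChev Cfsg.Agent.Nodes.ChevCls
  Cfsg.Agent.OddHalf.NI.ModelChev Cfsg.Agent.Nodes.StabComb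
  Cfsg.Agent.H162.GaussDec Cfsg.Agent.H162.GaussLevi Cfsg.Agent.H162.GaussSL Cfsg.Agent.H162.GaussReg
  Cfsg.Agent.H162.GaussPQ
  Cfsg.Agent.H928.Ore.Frame
open Cfsg.Lie Cfsg.Agent.ChevalleyStructure Cfsg.Agent.ChevalleyStructure.Elts
  Cfsg.Agent.ChevalleyStructure.RootVec Cfsg.Agent.ChevalleyStructure.NPerm
  Cfsg.Agent.ChevalleyStructure.CoxeterGeomTypes Cfsg.Agent.Nodes.RGDChev Cfsg.Agent.KFacts.RgdChevCoord
open Cfsg.Agent.FixBN.FieldRGD (uu vv dd ww)
open Cfsg.Agent.TitsThree.KExcRT Cfsg.Agent.AGraded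
open Cfsg.Agent.H482.Ore.Fix (Bk SimpB wt Dz)
open Cfsg.Agent.H78.Pw Cfsg.Agent.H85.Pw Cfsg.Agent.H194.Pw
open Cfsg.Agent.H122.Pw Cfsg.Agent.H122.SX.E127
open scoped MatrixGroups

universe u

/-- two values -/
def Two (q : ℕ) (m : ℤ) : Prop := (∀ k : Fin 7, wt chevE8 j7 q k = m ∨ wt chevE8 j7 q k = m + 1) ∧
  (∃ k : Fin 7, wt chevE8 j7 q k = m) ∧ ∃ k : Fin 7, wt chevE8 j7 q k = m + 1

instance decTwo (q : ℕ) (m : ℤ) : Decidable (Two q m) := by
  unfold Two
  infer_instance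

/-- **The weights.** -/
theorem out7 : ∀ q < chevE8.nroots, (∃ k : Fin 8, k ∉ J6 ∧ vec chevE8 8 q k ≠ 0) → Two q (-1) ∨ Two q 0 := by
  intro q hq
  revert q
  refine @of_decide_eq_true _ ?_ ?_
  · refine @Nat.decidableBallLT _ _ fun q _ => ?_
    infer_instance
  · decide +kernel

section

variable {K : Type u} [Field K] [Finite K]

/-- the product of the eigenvalues -/
theorem prod_ne {K' : Type u} [Field K'] {z : K'} {r : ℕ} (hr : r.Prime) (hr7 : r ≠ 7)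
    (hd : r ∣ ∑ a ∈ Finset.range 7, Nat.card K ^ a) (hz : orderOf z = r) {w : Fin 7 → ℤ} {m : ℤ}
    (h1 : ∀ k, w k = m ∨ w k = m + 1) (h2 : ∃ k, w k = m) (h3 : ∃ k, w k = m + 1) :
    ∏ b : Fin 7, (z ^ Nat.card K ^ (b : ℕ)) ^ w b ≠ 1 := by
  have hz0 : z ≠ 0 := by
    rintro rfl
    have h4 : orderOf (0 : K') = 0 := by
      rw [orderOf_eq_zero_iff']
      intro n hn
      rw [zero_pow hn.ne']
      exact zero_ne_one
    rw [h4] at hz
    exact hr.ne_zero hz.symm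
  have e1 : ∀ b : Fin 7, (z ^ Nat.card K ^ (b : ℕ)) ^ w b = z ^ (((Nat.card K : ℕ) : ℤ) ^ (b : ℕ) * w b) := by
    intro b
    rw [← zpow_natCast, ← zpow_mul]
    push_cast
    rfl
  rw [Finset.prod_congr rfl fun b _ => e1 b, Cfsg.Agent.H85.Ore.prod_zpow' hz0]
  intro h5
  obtain ⟨u, rfl⟩ : ∃ u : K'ˣ, (u : K') = z := ⟨Units.mk0 z hz0, rfl⟩
  have h6 : u ^ (∑ b : Fin 7, ((Nat.card K : ℕ) : ℤ) ^ (b : ℕ) * w b) = 1 := by
    apply Units.ext
    rw [Units.val_zpow_eq_zpow_val, Units.val_one]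
    exact h5
  have h7 := orderOf_dvd_iff_zpow_eq_one.2 h6
  rw [← orderOf_units, hz] at h7
  have h8 := (ZMod.intCast_zmod_eq_zero_iff_dvd _ r).2 h7
  have hs : ∑ k : Fin 7, ((Nat.card K : ℕ) : ZMod r) ^ (k : ℕ) = 0 := by
    rw [Fin.sum_univ_eq_sum_range (fun a => ((Nat.card K : ℕ) : ZMod r) ^ a) 7]
    have h9 := (ZMod.natCast_eq_zero_iff _ _).2 hd
    rw [Nat.cast_sum] at h9
    rw [← h9]
    exact Finset.sum_congr rfl fun a _ => (Nat.cast_pow _ a).symm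
  have h10 : ∑ k ∈ Finset.univ.filter (fun k => w k = m + 1), ((Nat.card K : ℕ) : ZMod r) ^ (k : ℕ) = 0 := by
    rw [← h8, Int.cast_sum, Finset.sum_filter]
    have h11 : ∀ k : Fin 7, ((((Nat.card K : ℕ) : ℤ) ^ (k : ℕ) * w k : ℤ) : ZMod r) =
        (m : ZMod r) * ((Nat.card K : ℕ) : ZMod r) ^ (k : ℕ) +
          if w k = m + 1 then ((Nat.card K : ℕ) : ZMod r) ^ (k : ℕ) else 0 := by
      intro k
      rcases h1 k with h | h
      · rw [if_neg (by omega), h]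
        push_cast
        ring
      · rw [if_pos h, h]
        push_cast
        ring
    rw [Finset.sum_congr rfl fun k _ => h11 k, Finset.sum_add_distrib, ← Finset.mul_sum, hs, mul_zero, zero_add]
  refine num_fact hr hr7 hd ?_ ?_ h10
  · obtain ⟨k, hk⟩ := h3
    exact ⟨k, by simp [hk]⟩
  · intro h
    obtain ⟨k, hk⟩ := h2
    have h11 := Finset.mem_univ k
    rw [← h, Finset.mem_filter] at h11
    omega

/-- an eigenvalue has order `r` -/
theorem root_pow {K' : Type u} [Field K'] {i : K →+* K'} {n r : ℕ} {A : Matrix.SpecialLinearGroup (Fin n) K}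
    {lam : Fin n → K'} {g : GL (Fin n) K'}
    (hg : (A : Matrix (Fin n) (Fin n) K).map i = (g : Matrix (Fin n) (Fin n) K') * Matrix.diagonal lam *
      ((g⁻¹ : GL (Fin n) K') : Matrix (Fin n) (Fin n) K')) (hA : A ^ r = 1) (a : Fin n) : lam a ^ r = 1 := by
  have h1 : ((A : Matrix (Fin n) (Fin n) K).map i) ^ r = 1 := by
    have h2 : (A : Matrix (Fin n) (Fin n) K) ^ r = 1 := by
      have := congrArg (fun B : Matrix.SpecialLinearGroup (Fin n) K => (B : Matrix (Fin n) (Fin n) K)) hA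
      simpa using this
    rw [← Matrix.map_pow, h2, Matrix.map_one _ (map_zero _) (map_one _)]
  rw [hg, Units.conj_pow] at h1
  have h3 : Matrix.diagonal lam ^ r = 1 := by
    have h4 := congrArg (fun M => ((g⁻¹ : GL (Fin n) K') : Matrix (Fin n) (Fin n) K') * M *
      (g : Matrix (Fin n) (Fin n) K')) h1
    simp only [Matrix.mul_assoc, Matrix.mul_one] at h4
    rw [← Units.val_mul, inv_mul_cancel, Units.val_one, Matrix.mul_one, ← Matrix.mul_assoc, ← Units.val_mul,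
      inv_mul_cancel, Units.val_one, Matrix.one_mul] at h4
    exact h4
  rw [Matrix.diagonal_pow] at h3
  have h5 := congrFun (congrFun h3 a) a
  rwa [Matrix.diagonal_apply_eq, Matrix.one_apply_eq, Pi.pow_apply] at h5

/-- **No fixed points.** -/
theorem nf7 {r : ℕ} (hr : r.Prime) (hr7 : r ≠ 7) (hd : r ∣ ∑ a ∈ Finset.range 7, Nat.card K ^ a)
    {A : Matrix.SpecialLinearGroup (Fin 7) K} (hA : Irreducible (A : Matrix (Fin 7) (Fin 7) K).charpoly)
    (hAr : A ^ r = 1) :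
    NF (VJ cs8 hp8.isCartan (XX chevE8 8 K) {k | k ∈ J6}) (p7 K A) ∧
      NF (VNJ cs8 hp8.isCartan (XX chevE8 8 K) {k | k ∈ J6}) (p7 K A) := by
  obtain ⟨K', _, _, i, z, S⟩ := exists_spec hA
  obtain ⟨ch, hch⟩ := CharP.exists K'
  have : Fact ch.Prime := ⟨(CharP.char_is_prime_or_zero K' ch).resolve_right (CharP.char_ne_zero_of_finite K' ch)⟩
  have BA : Bk hp8 i {k | k ∈ J6} 5 r7 j7 (p7 K) (p7 K') (fun a b => ((s7 a b : ℤ) : K)) :=
    { simp := ⟨sim7.1, sim7.2⟩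
      rlt := rt7.1
      rJ := r7J
      hφ := p7_tv K
      hφ' := fun a b hab c => by rw [p7_tv, map_intCast]
      ss := fun a => by rw [rt7.2.2.2.2.1 a.castSucc a.succ, ← Int.cast_mul, rt7.2.2.2.1, Int.cast_one] }
  obtain ⟨g, hg⟩ := Cfsg.Agent.H934.MF.diag_map i (A : Matrix (Fin 7) (Fin 7) K) S.inj S.split
  have hz : orderOf z = r := by
    have : Fact r.Prime := ⟨hr⟩
    have h1 := root_pow hg hAr 0
    rw [Fin.val_zero, pow_zero, pow_one] at h1
    have h2 := ne_one S (by norm_num) 0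
    rw [pow_zero, pow_one] at h2
    exact orderOf_eq_prime h1 h2
  refine H482.Ore.Fix.nf_block' hp8 ch BA hg fun q hq hk => ?_
  rcases out7 q hq hk with h | h
  · exact prod_ne (K := K) hr hr7 hd hz h.1 h.2.1 h.2.2
  · exact prod_ne (K := K) hr hr7 hd hz h.1 h.2.1 h.2.2

end

end Cfsg.Agent.H563.TW
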